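import Cfsg.Agent.Lib.Helper58.G2Syl.Defs

set_option autoImplicit false

namespace Cfsg.Agent.Lib.Helper64.G2Syl

open Cfsg Cfsg.Lie Cfsg.Agent.Lib.Helper58.WrSyl Cfsg.Agent.Lib.Helper58.G2Syl
open scoped MatrixGroups
open Matrix.GeneralLinearGroup (scalar det)

/-- the product in coordinates -/
theorem A4_zorn {F : Type*} [Field F] (x y : Fin 8 → F) : zornMul x y =
    ![x 0 * y 0 + (x 1 * y 4 + x 2 * y 5 + x 3 * y 6),
      x 0 * y 1 + y 7 * x 1 - (x 5 * y 6 - x 6 * y 5),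
      x 0 * y 2 + y 7 * x 2 - (x 6 * y 4 - x 4 * y 6),
      x 0 * y 3 + y 7 * x 3 - (x 4 * y 5 - x 5 * y 4),
      y 0 * x 4 + x 7 * y 4 + (x 2 * y 3 - x 3 * y 2),
      y 0 * x 5 + x 7 * y 5 + (x 3 * y 1 - x 1 * y 3),
      y 0 * x 6 + x 7 * y 6 + (x 1 * y 2 - x 2 * y 1),
      (x 4 * y 1 + x 5 * y 2 + x 6 * y 3) + x 7 * y 7] := rfl

/-- the identity of the Zorn algebra -/
def A4_u (F : Type*) [Field F] : Fin 8 → F := ![1, 0, 0, 0, 0, 0, 0, 1]

theorem A4_u_left {F : Type*} [Field F] (y : Fin 8 → F) : zornMul (A4_u F) y = y := by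
  rw [A4_zorn]
  ext i
  fin_cases i <;> simp [A4_u]

theorem A4_u_right {F : Type*} [Field F] (y : Fin 8 → F) : zornMul y (A4_u F) = y := by
  rw [A4_zorn]
  ext i
  fin_cases i <;> simp [A4_u]

theorem A4_e1_sq (F : Type*) [Field F] : zornMul (e1 F) (e1 F) = e1 F := by
  rw [A4_zorn]
  ext i
  fin_cases i <;> simp [e1]

/-- [A4] -/
theorem autO_e1_mem {F : Type*} [Field F] (f : L8 F) (hf : f ∈ AutO F) : f (e1 F) ∈ Idem F := by
  rw [mem_AutO] at hf
  have hfu : f (A4_u F) = A4_u F := by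
    have h1 : zornMul (f (A4_u F)) (A4_u F) = A4_u F := by
      have h2 : zornMul (f (A4_u F)) (f (f.symm (A4_u F))) = f (f.symm (A4_u F)) := by
        rw [← hf, A4_u_left]
      rwa [LinearEquiv.apply_symm_apply] at h2
    rw [A4_u_right] at h1
    exact h1
  have hyy : zornMul (f (e1 F)) (f (e1 F)) = f (e1 F) := by rw [← hf, A4_e1_sq]
  have hy0 : f (e1 F) ≠ 0 := by
    intro h
    have h1 : e1 F = 0 := f.injective (by rw [h, map_zero])
    have := congrFun h1 0
    simp [e1] at this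
  have hyu : f (e1 F) ≠ A4_u F := by
    intro h
    have h1 : e1 F = A4_u F := f.injective (by rw [h, hfu])
    have := congrFun h1 7
    simp [e1, A4_u] at this
  generalize f (e1 F) = y at hyy hy0 hyu
  rw [A4_zorn] at hyy
  have c0 : y 0 * y 0 + (y 1 * y 4 + y 2 * y 5 + y 3 * y 6) = y 0 := congrFun hyy 0
  have c1 : y 0 * y 1 + y 7 * y 1 - (y 5 * y 6 - y 6 * y 5) = y 1 := congrFun hyy 1
  have c2 : y 0 * y 2 + y 7 * y 2 - (y 6 * y 4 - y 4 * y 6) = y 2 := congrFun hyy 2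
  have c3 : y 0 * y 3 + y 7 * y 3 - (y 4 * y 5 - y 5 * y 4) = y 3 := congrFun hyy 3
  have c4 : y 0 * y 4 + y 7 * y 4 + (y 2 * y 3 - y 3 * y 2) = y 4 := congrFun hyy 4
  have c5 : y 0 * y 5 + y 7 * y 5 + (y 3 * y 1 - y 1 * y 3) = y 5 := congrFun hyy 5
  have c6 : y 0 * y 6 + y 7 * y 6 + (y 1 * y 2 - y 2 * y 1) = y 6 := congrFun hyy 6
  have c7 : (y 4 * y 1 + y 5 * y 2 + y 6 * y 3) + y 7 * y 7 = y 7 := congrFun hyy 7
  by_cases h : y 0 + y 7 = 1
  · exact ⟨h, by linear_combination y 0 * h - c0⟩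
  · exfalso
    have hne : y 0 + y 7 - 1 ≠ 0 := fun h1 => h (sub_eq_zero.mp h1)
    have z1 : y 1 = 0 := by
      have : (y 0 + y 7 - 1) * y 1 = 0 := by linear_combination c1
      exact (mul_eq_zero.mp this).resolve_left hne
    have z2 : y 2 = 0 := by
      have : (y 0 + y 7 - 1) * y 2 = 0 := by linear_combination c2
      exact (mul_eq_zero.mp this).resolve_left hne
    have z3 : y 3 = 0 := by
      have : (y 0 + y 7 - 1) * y 3 = 0 := by linear_combination c3
      exact (mul_eq_zero.mp this).resolve_left hne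
    have z4 : y 4 = 0 := by
      have : (y 0 + y 7 - 1) * y 4 = 0 := by linear_combination c4
      exact (mul_eq_zero.mp this).resolve_left hne
    have z5 : y 5 = 0 := by
      have : (y 0 + y 7 - 1) * y 5 = 0 := by linear_combination c5
      exact (mul_eq_zero.mp this).resolve_left hne
    have z6 : y 6 = 0 := by
      have : (y 0 + y 7 - 1) * y 6 = 0 := by linear_combination c6
      exact (mul_eq_zero.mp this).resolve_left hne
    have q0 : y 0 * (y 0 - 1) = 0 := by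
      rw [z1, z2, z3] at c0
      linear_combination c0
    have q7 : y 7 * (y 7 - 1) = 0 := by
      rw [z4, z5, z6] at c7
      linear_combination c7
    rcases mul_eq_zero.mp q0 with a0 | a0 <;> rcases mul_eq_zero.mp q7 with a7 | a7
    · apply hy0
      ext i
      fin_cases i <;> simp [a0, a7, z1, z2, z3, z4, z5, z6]
    · apply h
      rw [a0, sub_eq_zero.mp a7, zero_add]
    · apply h
      rw [a7, sub_eq_zero.mp a0, add_zero]
    · apply hyu
      ext i
      fin_cases i <;> simp [A4_u, sub_eq_zero.mp a0, sub_eq_zero.mp a7, z1, z2, z3, z4, z5, z6]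

end Cfsg.Agent.Lib.Helper64.G2Syl
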