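import Cfsg.Agent.Lib.Helper58.G2Syl.Defs
import Cfsg.Agent.Lib.Helper42.SpecO4
import Cfsg.Agent.Lib.Helper65.WrSyl.U1

set_option autoImplicit false

namespace Cfsg.Agent.Lib.Helper64.G2Syl

open Cfsg Cfsg.Lie Cfsg.Agent.Lib.Helper58.WrSyl Cfsg.Agent.Lib.Helper58.G2Syl
open scoped MatrixGroups
open Matrix.GeneralLinearGroup (scalar det)

/-- the bijection between the nontrivial idempotents and the unit sphere of the 7-dimensional form -/
noncomputable def A5_equiv {F : Type*} [Field F] (h : F) (hh : 2 * h = 1) :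
    ↥(Idem F) ≃ {v : Unit ⊕ (Fin 3 ⊕ Fin 3) → F // Cfsg.quadFormOdd 3 F v = 1} where
  toFun x := ⟨Sum.elim (fun _ => x.1 0 - x.1 7)
      (Sum.elim ![4 * x.1 1, 4 * x.1 2, 4 * x.1 3] ![x.1 4, x.1 5, x.1 6]), by
    obtain ⟨x, h1, h2⟩ := x
    simp only [Cfsg.quadFormOdd, Fin.sum_univ_three, Sum.elim_inl, Sum.elim_inr]
    show (x 0 - x 7) ^ 2 + (4 * x 1 * x 4 + 4 * x 2 * x 5 + 4 * x 3 * x 6) = 1
    linear_combination (x 0 + x 7 + 1) * h1 - 4 * h2⟩
  invFun v := ⟨![(1 + v.1 (.inl ())) * h, v.1 (.inr (.inl 0)) * (h * h), v.1 (.inr (.inl 1)) * (h * h),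
      v.1 (.inr (.inl 2)) * (h * h), v.1 (.inr (.inr 0)), v.1 (.inr (.inr 1)), v.1 (.inr (.inr 2)),
      (1 - v.1 (.inl ())) * h], by
    obtain ⟨v, hv⟩ := v
    simp only [Cfsg.quadFormOdd, Fin.sum_univ_three] at hv
    constructor
    · show (1 + v (.inl ())) * h + (1 - v (.inl ())) * h = 1
      linear_combination hh
    · show (1 + v (.inl ())) * h * ((1 - v (.inl ())) * h) =
        v (.inr (.inl 0)) * (h * h) * v (.inr (.inr 0)) + v (.inr (.inl 1)) * (h * h) * v (.inr (.inr 1)) +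
          v (.inr (.inl 2)) * (h * h) * v (.inr (.inr 2))
      linear_combination (-(h * h)) * hv⟩
  left_inv := by
    rintro ⟨x, h1, h2⟩
    apply Subtype.ext
    funext i
    fin_cases i
    · show (1 + (x 0 - x 7)) * h = x 0
      linear_combination x 0 * hh - h * h1
    · show 4 * x 1 * (h * h) = x 1
      linear_combination x 1 * (2 * h + 1) * hh
    · show 4 * x 2 * (h * h) = x 2
      linear_combination x 2 * (2 * h + 1) * hh
    · show 4 * x 3 * (h * h) = x 3
      linear_combination x 3 * (2 * h + 1) * hh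
    · rfl
    · rfl
    · rfl
    · show (1 - (x 0 - x 7)) * h = x 7
      linear_combination x 7 * hh - h * h1
  right_inv := by
    rintro ⟨v, hv⟩
    apply Subtype.ext
    funext i
    rcases i with ⟨⟩ | i | i
    · show (1 + v (.inl ())) * h - (1 - v (.inl ())) * h = v (.inl ())
      linear_combination v (.inl ()) * hh
    · fin_cases i
      · show 4 * (v (.inr (.inl 0)) * (h * h)) = v (.inr (.inl 0))
        linear_combination v (.inr (.inl 0)) * (2 * h + 1) * hh
      · show 4 * (v (.inr (.inl 1)) * (h * h)) = v (.inr (.inl 1))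
        linear_combination v (.inr (.inl 1)) * (2 * h + 1) * hh
      · show 4 * (v (.inr (.inl 2)) * (h * h)) = v (.inr (.inl 2))
        linear_combination v (.inr (.inl 2)) * (2 * h + 1) * hh
    · fin_cases i <;> rfl

/-- [A5] -/
theorem card_Idem {F : Type*} [Field F] [Fintype F] (hF : Odd (Fintype.card F)) :
    Nat.card (Idem F) = Fintype.card F ^ 6 + Fintype.card F ^ 3 := by
  have h2 : (2 : F) ≠ 0 := Cfsg.Agent.Lib.Helper65.WrSyl.two_ne_zero_of_odd_card hF
  rw [Nat.card_congr (A5_equiv (2 : F)⁻¹ (mul_inv_cancel₀ h2)),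
    Cfsg.Agent.Lib.Helper42.SpecO.card_sphere_odd h2 3]

end Cfsg.Agent.Lib.Helper64.G2Syl
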