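import Cfsg.Agent.Lib.Helper58.G2Syl.Defs
import Cfsg.Agent.Lib.Helper60.WrSyl.B2
import Cfsg.Agent.Lib.Helper60.WrSyl.M2

set_option autoImplicit false

namespace Cfsg.Agent.Lib.Helper64.G2Syl

open Cfsg Cfsg.Lie Cfsg.Agent.Lib.Helper58.WrSyl Cfsg.Agent.Lib.Helper58.G2Syl
open scoped MatrixGroups
open Matrix.GeneralLinearGroup (scalar det)

/-- an element of `GL_2` whose square is `-1` -/
theorem C3_exists_i (F : Type*) [Field F] : ∃ i : GL (Fin 2) F, i ^ 2 = scalar (Fin 2) (-1 : Fˣ) := by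
  have h : (!![0, -1; 1, 0] : Matrix (Fin 2) (Fin 2) F) * !![0, 1; -1, 0] = 1 := by
    simp [Matrix.one_fin_two]
  have h' : (!![0, 1; -1, 0] : Matrix (Fin 2) (Fin 2) F) * !![0, -1; 1, 0] = 1 := by
    simp [Matrix.one_fin_two]
  refine ⟨⟨!![0, -1; 1, 0], !![0, 1; -1, 0], h, h'⟩, ?_⟩
  apply Units.ext
  rw [pow_two, Units.val_mul]
  ext a b
  fin_cases a <;> fin_cases b <;> simp [Matrix.GeneralLinearGroup.scalar, Matrix.mul_apply, Fin.sum_univ_two]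

/-- [C3] -/
theorem exists_good_three {F : Type*} [Field F] [Fintype F] (hF : Fintype.card F % 4 = 3) :
    ∃ S : Subgroup (GL (Fin 2) F), IsPGroup 2 S ∧
      (Nat.card (GL (Fin 2) F)).factorization 2 = (Nat.card S).factorization 2 ∧
      ∀ A ∈ S, ∃ c ∈ ⁅S, S⁆, A ^ 2 = scalar (Fin 2) (det A) * c := by
  have : Fact (Nat.Prime 2) := ⟨Nat.prime_two⟩
  obtain ⟨i, hi⟩ := C3_exists_i F
  have hss : scalar (Fin 2) (-1 : Fˣ) * scalar (Fin 2) (-1 : Fˣ) = 1 := by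
    rw [← map_mul, neg_mul_neg, one_mul, map_one]
  have hi4 : i ^ 4 = 1 := by
    have : i ^ 4 = i ^ 2 * i ^ 2 := by rw [← pow_add]
    rw [this, hi, hss]
  have hp : IsPGroup 2 (Subgroup.zpowers i) := by
    rintro ⟨g, hg⟩
    obtain ⟨n, rfl⟩ := Subgroup.mem_zpowers_iff.mp hg
    refine ⟨2, Subtype.ext ?_⟩
    change (i ^ n) ^ (2 ^ 2) = 1
    rw [← zpow_natCast, ← zpow_mul, mul_comm, zpow_mul, zpow_natCast]
    norm_num [hi4]
  obtain ⟨Q, hQ⟩ := hp.exists_le_sylow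
  have hiQ : i ∈ (Q : Subgroup (GL (Fin 2) F)) := hQ (Subgroup.mem_zpowers i)
  have hPC := Cfsg.Agent.Lib.Helper60.WrSyl.powComm_gl2 hF Q
  have hsq : ∀ x ∈ (Q : Subgroup (GL (Fin 2) F)), x ^ 2 ∈
      ⁅(Q : Subgroup (GL (Fin 2) F)), (Q : Subgroup (GL (Fin 2) F))⁆ := by
    intro x hx
    rw [← Subgroup.map_subtype_commutator]
    exact ⟨(⟨x, hx⟩ : (Q : Subgroup (GL (Fin 2) F))) ^ 2, hPC ⟨x, hx⟩, rfl⟩
  refine ⟨(Q : Subgroup (GL (Fin 2) F)), Q.2, ?_, ?_⟩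
  · rw [Sylow.card_eq_multiplicity, Nat.Prime.factorization_pow Nat.prime_two]
    simp
  · intro A hA
    obtain ⟨k, hk⟩ := Q.2 ⟨A, hA⟩
    have hk' : A ^ (2 ^ k) = 1 := by
      have := congrArg Subtype.val hk
      simpa using this
    rcases Cfsg.Agent.Lib.Helper60.WrSyl.det_pm_one hF A k hk' with h | h
    · have hd : det A = 1 := Units.ext h
      exact ⟨A ^ 2, hsq A hA, by rw [hd, map_one, one_mul]⟩
    · have hd : det A = -1 := Units.ext (by simpa using h)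
      refine ⟨scalar (Fin 2) (-1 : Fˣ) * A ^ 2, mul_mem (hi ▸ hsq i hiQ) (hsq A hA), ?_⟩
      rw [hd, ← mul_assoc, hss, one_mul]

end Cfsg.Agent.Lib.Helper64.G2Syl
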