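import Cfsg.Agent.Lib.Helper58.G2Syl.Defs

set_option autoImplicit false

namespace Cfsg.Agent.Lib.Helper64.G2Syl

open Cfsg Cfsg.Lie Cfsg.Agent.Lib.Helper58.WrSyl Cfsg.Agent.Lib.Helper58.G2Syl
open scoped MatrixGroups
open Matrix.GeneralLinearGroup (scalar det)

/-- [C2] -/
theorem exists_det_gen {F : Type*} [Field F] [Fintype F] (S : Subgroup (GL (Fin 2) F)) :
    ∃ D ∈ S, ∀ s ∈ S, ∃ k : ℤ, det s = det D ^ k := by
  obtain ⟨⟨g, hg⟩, hgen⟩ := IsCyclic.exists_generator (α := S.map det)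
  obtain ⟨D, hD, rfl⟩ := hg
  refine ⟨D, hD, fun s hs => ?_⟩
  obtain ⟨k, hk⟩ := Subgroup.mem_zpowers_iff.mp (hgen ⟨det s, Subgroup.mem_map_of_mem _ hs⟩)
  refine ⟨k, ?_⟩
  have := congrArg Subtype.val hk
  simpa using this.symm

end Cfsg.Agent.Lib.Helper64.G2Syl
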